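import Cfsg.Agent.Lib.LXR.Defs

/-! The reducible case: `Q_z ⊓ Q_t` is a normal elementary abelian subgroup of `C(z)` of order `2^(n+1)` -/

set_option autoImplicit false

namespace CfsgLib.LXR

open Subgroup QuadraticMap Module CfsgLib.ExtraTwo CfsgLib.LargeExtra CfsgLib.OrthE CfsgLib.Small9
open CfsgLib.LXQ (CC Qx Qx_conj mem_Qx_conj conj_mem_Qx isConj_conj mem_Qx_mul)

variable {G : Type*} [Group G] {z t s f u x y : G} {n : ℕ}

/-- `C(z)` acts reducibly on `Q_z / ⟨z⟩` -/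
def Red (z : G) : Prop := ∃ A : Subgroup G, A ≤ Qx z ∧ z ∈ A ∧ (∀ g, g * z = z * g → ∀ x ∈ A, g * x * g⁻¹ ∈ A) ∧
  (∃ x ∈ A, x ≠ 1 ∧ x ≠ z) ∧ ¬ Qx z ≤ A

theorem comm_conj {g k : G} (h : k * (g * z * g⁻¹) = g * z * g⁻¹ * k) : g⁻¹ * k * g * z = z * (g⁻¹ * k * g) := by
  simpa [mul_assoc] using (Commute.conj h g⁻¹).eq

theorem Red.conj (h : Red z) (hs : IsConj z s) : Red s := by
  obtain ⟨g, rfl⟩ := isConj_iff.1 hs
  obtain ⟨A, a, b, c, ⟨x, d, e1, e2⟩, e⟩ := h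
  refine ⟨A.map (MulAut.conj g).toMonoidHom, Qx_conj g z ▸ map_mono a, ⟨z, b, rfl⟩, fun k hk y hy => ?_,
    ⟨_, ⟨x, d, rfl⟩, by simpa using e1, by simpa using e2⟩, fun k => e fun y hy => ?_⟩
  · exact mem_map_conj.2 (by simpa [mul_assoc] using c _ (comm_conj hk) _ (mem_map_conj.1 hy))
  · simpa [mul_assoc] using mem_map_conj.1 (k (mem_Qx_conj.2 hy))

/-- the normal closure of `t` in `C(z)` -/
def AZ (z t : G) : Subgroup G := closure {x | ∃ g, g * z = z * g ∧ g * t * g⁻¹ = x}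

theorem self_AZ : t ∈ AZ z t := subset_closure ⟨1, by simp, by simp⟩

theorem AZ_conj (g : G) (hx : x ∈ AZ z t) : g * x * g⁻¹ ∈ AZ (g * z * g⁻¹) (g * t * g⁻¹) :=
  (closure_le ((AZ _ _).comap (MulAut.conj g).toMonoidHom)).2 (by
    rintro _ ⟨k, hk, rfl⟩
    exact subset_closure ⟨g * k * g⁻¹, (Commute.conj hk g).eq, by simp [mul_assoc]⟩) hx

theorem AZ_eq {g : G} (hg : g * z = z * g) : AZ z (g * t * g⁻¹) = AZ z t := by
  have k : ∀ {g t}, g * z = z * g → AZ z (g * t * g⁻¹) ≤ AZ z t := fun {g t} hg => closure_mono (by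
    rintro _ ⟨k, hk, rfl⟩
    exact ⟨k * g, (Commute.mul_left hk hg).eq, by group⟩)
  exact le_antisymm (k hg) (by simpa [mul_assoc] using k (t := g * t * g⁻¹) (Commute.inv_left hg).eq)

theorem AZ_nrm {g : G} (hg : g * z = z * g) (hx : x ∈ AZ z t) : g * x * g⁻¹ ∈ AZ z t := by
  simpa only [conj_eq_of_comm hg, AZ_eq hg] using AZ_conj g hx

theorem Hn.AZ_le (h : Hn z n) (p : Pt z t) : AZ z t ≤ Qx z :=
  (closure_le _).2 (by rintro _ ⟨g, hg, rfl⟩; exact h.pre.norm g hg t p.mem)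

theorem Hn.AZ_mul (h : Hn z n) (p : Pt z t) : AZ z (z * t) = AZ z t := by
  obtain ⟨a, ha, e⟩ := h.es.exists_conj p.mem (h.ne_one p.conj) p.ne
  rw [← h.es.comm_z t p.mem, ← e, AZ_eq (h.es.comm_z a ha)]

theorem Hn.z_AZ (h : Hn z n) (p : Pt z t) : z ∈ AZ z t :=
  (mul_mem_cancel_right self_AZ).1 (h.AZ_mul p ▸ self_AZ : z * t ∈ AZ z t)

theorem Cn.mem_AZ (c : Cn z n) (p : Pt z t) (hx : x ∈ Qx z) :
    c.π x ∈ Submodule.span (ZMod 2) (c.T t) ↔ x ∈ AZ z t := by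
  refine ⟨fun h => (c.co.sub_img (c.hyp.AZ_le p) (c.hyp.z_AZ p)).le ⟨hx, Submodule.span_le.2 (fun v hv => ?_) h⟩,
    fun h => ((closure_le (c.co.sub _)).2 ?_ h).2⟩
  · obtain ⟨y, hy, rfl⟩ := c.co.surj v
    exact ⟨y, subset_closure ((c.mem_T p hy).1 hv), hy, rfl⟩
  · rintro _ ⟨g, hg, rfl⟩
    have m := (p.cj' hg).mem
    exact ⟨m, Submodule.subset_span ((c.mem_T p m).2 ⟨g, hg, rfl⟩)⟩

variable [Finite G]

theorem Hn.mem_AZ_symm (h : Hn z n) (p : Pt z t) (hf : f ∈ AZ z t) (hf' : f ∈ Qx t) : f ∈ AZ t z := by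
  obtain ⟨a, ha, e⟩ := h.es.exists_not_comm p.mem (h.ne_one p.conj) p.ne
  obtain ⟨g, hg, e1, e2, -⟩ := h.exists_sw p ha e
  have m := (closure_le (AZ z t)).2 (by simp [Set.insert_subset_iff, h.z_AZ p, self_AZ])
    ((h.pair p).commutator_X_E (inv_mem hg) ⟨h.AZ_le p hf, hf'⟩)
  have := AZ_conj g (h.AZ_mul p ▸ mul_mem m hf : _ ∈ AZ z (z * t))
  simpa [e1, e2, mul_assoc] using this

structure Hr (z : G) (n : ℕ) : Prop extends Hn z n where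
  red : Red z

omit [Finite G] in
theorem Hr.cj (h : Hr z n) (hs : IsConj z s) : Hr s n := ⟨h.conj hs, h.red.conj hs⟩

variable [IsSimpleGroup G]

theorem Cn.lc [NeZero (2 * n)] (c : Cn z n) (h : Red z) (p : Pt z t) :
    LC c.q c.K (c.T t) c.E c.R (Submodule.span (ZMod 2) (c.T t)) := by
  obtain ⟨A, a, b, d, ⟨x, e, e1, e2⟩, f⟩ := h
  refine (c.lt p).lc c.self_T ((c.lt p).ts (by have := c.hyp.big; omega) c.self_T (W := c.co.img A) ?_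
    (fun k => ?_) fun k => f fun y hy => (c.co.sub_img a b).le ⟨hy, k ▸ Submodule.mem_top⟩)
  · rintro k hk _ ⟨y, h1, h2, rfl⟩
    obtain ⟨g, hg, rfl⟩ := c.mem_K.1 hk
    exact ⟨_, d g hg y h1, a (d g hg y h1), (c.r_act hg h2).symm⟩
  · exact ((c.co.ker x (a e)).1 (k.le ⟨x, e, a e, rfl⟩)).elim e1 e2

namespace Hr
variable (h : Hr z n) (p : Pt z t)
include h p

theorem comm (hx : x ∈ AZ z t) (hy : y ∈ AZ z t) : x * y = y * x := by
  obtain ⟨c⟩ := h.exists_cn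
  have := h.neZero
  have a := h.AZ_le p hx; have b := h.AZ_le p hy
  exact (c.co.polar_iff a b).1 ((c.lc h.red p).iso _ ((c.mem_AZ p a).2 hx) _ ((c.mem_AZ p b).2 hy))

theorem orb (hx : x ∈ AZ z t) (h1 : x ≠ 1) (h2 : x ≠ z) : Pt z x ∧ AZ z x = AZ z t := by
  obtain ⟨c⟩ := h.exists_cn
  have := h.neZero
  have a := h.AZ_le p hx
  obtain ⟨g, hg, rfl⟩ := (c.mem_T p a).1 (((c.lc h.red p).a2 ((c.mem_AZ p a).2 hx)).resolve_left fun e =>
    ((c.co.ker x a).1 e).elim h1 h2)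
  exact ⟨p.cj' hg, AZ_eq hg⟩

theorem a6 (hs : s ∈ AZ z t) (ns : s ∉ Qx t) (hf : f ∈ AZ z t) (hf' : f ∈ Qx t) : f ∈ Qx s ∨ f * t ∈ Qx s := by
  obtain ⟨c⟩ := h.exists_cn
  have := h.neZero
  have a := h.AZ_le p hs; have b := h.AZ_le p hf
  have L := c.lc h.red p
  have ps := (h.orb p hs (fun e => ns (e ▸ one_mem _)) fun e => ns (e ▸ (h.symm p).mem)).1
  have := L.a6 c.self_T ((L.a2 ((c.mem_AZ p a).2 hs)).resolve_left (c.π_ne ps)) (mt (c.mem_E p a).1 ns)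
    ((c.mem_AZ p b).2 hf) ((c.mem_E p b).2 hf')
  rwa [← c.co.map_mul _ b _ p.mem, c.mem_E ps b, c.mem_E ps (mul_mem b p.mem)] at this

theorem exists_r (hs : s ∈ AZ z t) (ns : s ∉ Qx t) : ∃ r ∈ AZ t z, r ∉ Qx z ∧ r * s ≠ s * r := by
  obtain ⟨c⟩ := h.exists_cn
  have := h.neZero
  have L := c.lc h.red p
  have sQ := h.AZ_le p hs
  obtain ⟨a, ha, e⟩ := h.es.exists_not_comm p.mem (h.ne_one p.conj) p.ne
  have hv := (c.b_ne p.mem ha).2 e.symm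
  obtain ⟨g, -, e1, e2, e3⟩ := h.exists_sw p ha e
  obtain ⟨k, hk, ⟨s₀, h0, f1⟩, f2⟩ := L.key' c.self_T hv ((c.mem_AZ p sQ).2 hs) (mt (c.mem_E p sQ).1 ns)
  obtain ⟨y, hy, rfl⟩ := c.co.surj s₀
  rw [c.mem_AZ p hy] at h0
  obtain ⟨g1, g2⟩ := e3 y hy (h.comm p h0 self_AZ)
  have m := mul_mem (h.pre.norm _ g1 a ha) (inv_mem ha)
  obtain rfl := L.uniq c.self_T (c.R_eq p ▸ c.mem_Ro.2 ⟨_, conj_mem_Qx e1 hy, g1, rfl⟩) hk hv (by
    rw [← c.π_comm g1 ha, ← c.co.map_mul _ m _ hy]; exact (c.mem_E p (mul_mem m hy)).2 g2) f1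
  have n : (c.r (g * y * g⁻¹)).1 (c.π s) ≠ c.π s := fun e => c.π_ne p (by simpa [e] using f2.symm)
  exact ⟨_, by simpa only [e1, e2] using AZ_conj g (h.AZ_mul p ▸ h0 : y ∈ AZ z (z * t)),
    fun e => n (by rw [(c.r_eq_one g1).2 e]; rfl), fun e => n ((c.r_fix g1 sQ).2 (.inl (conj_eq_of_comm e)))⟩

theorem AZ_le' (h4 : 4 ≤ n) : AZ z t ≤ Qx t := fun s hs => by
  by_contra ns
  have p' := h.symm p
  have h' := h.cj p.conj
  obtain ⟨r, hr, nr, e⟩ := h.exists_r p hs ns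
  have ps := (h.orb p hs (fun e => ns (e ▸ one_mem _)) fun e => ns (e ▸ p'.mem)).1
  have pr := (h'.orb p' hr (fun e => nr (e ▸ one_mem _)) fun e => nr (e ▸ p.mem)).1
  have k : ∀ x ∈ AZ z t, x ∈ Qx t → x ∉ closure {z, t} → x ∈ Qx s → x ∉ Qx r := fun x a b c d d' => by
    rw [(h.pair p).mem_V, not_or, not_or, not_or] at c
    obtain ⟨px, e1⟩ := h.orb p a c.1 c.2.1
    obtain ⟨px', e2⟩ := h'.orb p' (h.mem_AZ_symm p a b) c.1 c.2.2.1
    have hx := h.cj px.conj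
    have m1 := h.mem_AZ_symm px (e1 ▸ hs) ((h.conj ps.conj).symm
      ⟨ps.conj.symm.trans px.conj, d, fun e => ns (e ▸ b)⟩).mem
    have m2 := h'.mem_AZ_symm px' (e2 ▸ hr) ((h'.conj pr.conj).symm
      ⟨pr.conj.symm.trans px'.conj, d', fun e => nr (e ▸ px.mem)⟩).mem
    have m3 := h.mem_AZ_symm px (e1 ▸ self_AZ) (h'.symm px').mem
    rw [(hx.orb (h.symm px) m3 (h.ne_one p.conj) (Ne.symm c.2.2.1)).2] at m2
    exact e (hx.comm (h.symm px) m2 m1)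
  have k' : ∀ x ∈ AZ z t, x ∈ Qx t → x ∉ closure {z, t} → x ∉ Qx s := fun x a b c d => by
    rcases h'.a6 p' hr nr (h.mem_AZ_symm p a b) (h.AZ_le p a) with e | e
    · exact k x a b c d e
    · exact k _ (mul_mem a (h.z_AZ p)) (mul_mem b p'.mem)
        (fun m => c ((mul_mem_cancel_right (subset_closure (by simp))).1 m)) (mul_mem d (h.symm ps).mem) e
  obtain ⟨c⟩ := h.exists_cn
  have := h.neZero
  refine ns ((c.mem_E p ps.mem).1 ((c.lc h.red p).a5 (by omega) c.self_T (fun v a b => ?_)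
    ((c.mem_AZ p ps.mem).2 hs)))
  obtain ⟨f, hf, rfl⟩ := c.co.surj v
  rw [c.mem_AZ p hf] at a
  rw [c.mem_E p hf] at b
  by_cases m : f ∈ closure {z, t}
  · rcases (h.pair p).mem_V.1 m with rfl | rfl | rfl | rfl
    exacts [.inl c.co.map_one, .inl c.co.map_z, .inr rfl, .inr (c.co.map_mul_z p.mem)]
  rcases h.a6 p hs ns a b with e | e
  · exact absurd e (k' f a b m)
  · exact absurd e (k' _ (mul_mem a self_AZ) (mul_mem b h'.es.mem)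
      fun m' => m ((mul_mem_cancel_right (subset_closure (by simp))).1 m'))

variable (h4 : 4 ≤ n)
include h4

theorem a4 [NeZero (2 * n)] (c : Cn z n) : c.E (c.π t) = Submodule.span (ZMod 2) (c.T t) ∧
    pp c.q (Submodule.span (ZMod 2) (c.T t)) = Submodule.span (ZMod 2) (c.T t) :=
  (c.lc h.red p).a4 c.self_T fun v hv => by
    obtain ⟨x, hx, rfl⟩ := c.co.surj v
    exact (c.mem_E p hx).2 (h.AZ_le' p h4 ((c.mem_AZ p hx).1 hv))

theorem AZ_eq_inf : AZ z t = Qx z ⊓ Qx t := by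
  obtain ⟨c⟩ := h.exists_cn
  have := h.neZero
  exact le_antisymm (le_inf (h.AZ_le p) (h.AZ_le' p h4)) fun x hx =>
    (c.mem_AZ p hx.1).1 ((h.a4 p h4 c).1 ▸ (c.mem_E p hx.1).2 hx.2)

theorem cen (hu : u ∈ Qx z) (e : ∀ y ∈ Qx z, y ∈ Qx t → y * u = u * y) : u ∈ Qx t := by
  obtain ⟨c⟩ := h.exists_cn
  have := h.neZero
  obtain ⟨a, b⟩ := h.a4 p h4 c
  refine (c.mem_E p hu).1 (a ▸ b.le fun v hv => ?_)
  obtain ⟨x, hx, rfl⟩ := c.co.surj v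
  exact (c.co.polar_iff hx hu).2 (e x hx ((c.mem_E p hx).1 (a ▸ hv)))

theorem card_inf : Nat.card (Qx z ⊓ Qx t : Subgroup G) = 2 ^ (n + 1) := by
  have e : Qx z ⊓ centralizer ((Qx z ⊓ Qx t : Subgroup G) : Set G) = Qx z ⊓ Qx t := le_antisymm
    (fun u hu => ⟨hu.1, h.cen p h4 hu.1 fun y a b => hu.2 y ⟨a, b⟩⟩)
    fun u hu => ⟨hu.1, fun y hy => (h.pair p).E_comm hy hu⟩
  have := card_mul_card_centralizer h.es (P := Qx z ⊓ Qx t) inf_le_left ⟨h.es.mem, (h.symm p).mem⟩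
  rw [e, h.card] at this
  exact Nat.mul_self_inj.1 (this.trans (by ring))

theorem nrm {g : G} (hg : g * z = z * g) (hx : x ∈ Qx z) (hx' : x ∈ Qx t) : g * x * g⁻¹ ∈ Qx t :=
  ((h.AZ_eq_inf p h4).le (AZ_nrm hg ((h.AZ_eq_inf p h4).ge ⟨hx, hx'⟩))).2

theorem pt (hx : x ∈ Qx z) (hx' : x ∈ Qx t) (h1 : x ≠ 1) (h2 : x ≠ z) : Pt z x ∧ Qx z ⊓ Qx x = Qx z ⊓ Qx t := by
  obtain ⟨a, b⟩ := h.orb p ((h.AZ_eq_inf p h4).ge ⟨hx, hx'⟩) h1 h2
  exact ⟨a, by rw [← h.AZ_eq_inf a h4, b, h.AZ_eq_inf p h4]⟩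

theorem two (ps : Pt z s) (pu : Pt z u) (n1 : s ∉ Qx t) (n2 : u ∉ Qx t) : u ∈ Qx s := by
  by_contra n3
  obtain ⟨c⟩ := h.exists_cn
  have := h.neZero
  have k : ∀ {x y}, Pt z x → Pt z y → y ∉ Qx x → ∀ v ∈ c.E (c.π y), v ∈ c.E (c.π x) → v = 0 :=
    fun {x y} px py m v a b => by
    obtain ⟨w, hw, rfl⟩ := c.co.surj v
    rw [c.mem_E py hw] at a
    rw [c.mem_E px hw] at b
    by_contra e
    rw [c.co.ker w hw, not_or] at e
    exact m (((h.pt py h4 hw a e.1 e.2).2.symm.trans (h.pt px h4 hw b e.1 e.2).2).le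
      ⟨py.mem, (h.conj py.conj).es.mem⟩).2
  have k' : ∀ {y}, Pt z y → y ∉ Qx t → Iv c.K (c.E (c.π y)) ∧ ∃ v ∈ c.E (c.π y), polar c.q (c.π t) v = 1 :=
    fun {y} py m => by
    obtain ⟨a, b⟩ := h.a4 py h4 c
    refine ⟨a ▸ (c.lt py).iv_span, by_contra fun e => ?_⟩
    simp only [← zmod2_ne_zero, not_exists, not_and, not_not] at e
    exact c.π_ne p (k p py m _ (a ▸ b.le fun v hv => (polar_comm _ _ _).trans (e v (a ▸ hv)))
      ((c.lt p).tE _ c.self_T))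
  obtain ⟨a, v, b, d⟩ := k' ps n1
  obtain ⟨a', v', b', d'⟩ := k' pu n2
  exact (c.lt p).two (by omega) c.self_T a a' b d b' d' (k p ps n1) (k p pu n2) fun v a b => k ps pu n3 v b a

end Hr

end CfsgLib.LXR
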