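import Cfsg.Agent.Lib.LXR.LinC
import Cfsg.Agent.Lib.LXQ.Tri

/-! `F*(C(z)) = O₂(C(z))` extraspecial of order `2^(m+1)`: coordinates, and the linear data of a conjugate of `z` -/

set_option autoImplicit false

namespace CfsgLib.LXR

open Subgroup QuadraticMap CfsgLib.ExtraTwo CfsgLib.LargeExtra CfsgLib.OrthE
open CfsgLib.LXQ (CC Qx Qx_conj mem_Qx_conj conj_mem_Qx isConj_conj mem_Qx_mul)

variable {G : Type*} [Group G]

structure Hn (z : G) (n : ℕ) : Prop where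
  pre : Pre (Qx z) z
  card : Nat.card (Qx z) = 2 ^ (2 * n + 1)
  big : 3 ≤ n

/-- `t` is a conjugate of `z` in `Q_z`, different from `z` -/
structure Pt (z t : G) : Prop where
  conj : IsConj z t
  mem : t ∈ Qx z
  ne : t ≠ z

theorem Pt.cj {z t : G} (p : Pt z t) (g : G) : Pt (g * z * g⁻¹) (g * t * g⁻¹) :=
  ⟨(isConj_iff.2 ⟨g, rfl⟩).symm.trans (isConj_conj p.conj g), mem_Qx_conj.2 p.mem, fun e => p.ne (by simpa using e)⟩

theorem Pt.cj' {z t g : G} (p : Pt z t) (hg : g * z = z * g) : Pt z (g * t * g⁻¹) := by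
  simpa only [conj_eq_of_comm hg] using p.cj g

namespace Hn

variable {z s t a r : G} {n : ℕ} (h : Hn z n)
include h

theorem es : ES (Qx z) z := h.pre.es

theorem conj (hs : IsConj z s) : Hn s n := by
  obtain ⟨g, rfl⟩ := isConj_iff.1 hs
  exact ⟨Qx_conj g z ▸ h.pre.conj g, by rw [Qx_conj, card_map_conj, h.card], h.big⟩

theorem sq (hs : IsConj z s) : s * s = 1 := (h.conj hs).es.mul_self

theorem ne_one (hs : IsConj z s) : s ≠ 1 := (h.conj hs).es.ne_one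

theorem ncomm : ¬ IsMulCommutative G := fun hc =>
  let ⟨x, _, y, _, e⟩ := h.es.nonab; e (hc.is_comm.comm x y)

theorem neZero : NeZero (2 * n) := ⟨by have := h.big; omega⟩

variable [Finite G]

theorem pair (p : Pt z t) : Pair (Qx z) (Qx t) z t := by
  obtain ⟨ht, hQ, hne⟩ := p
  obtain ⟨g, rfl⟩ := isConj_iff.1 ht
  exact Qx_conj g z ▸ h.pre.pair (by
    rw [h.card]; exact Nat.pow_lt_pow_right (a := 2) (m := 3) one_lt_two (by have := h.big; omega)) hQ hne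

theorem symm (p : Pt z t) : Pt t z := ⟨p.conj.symm, (h.pair p).zQ1, p.ne.symm⟩

theorem mem_of_comm_mem (p : Pt z t) (hr : r ∈ Qx t) (ha : a ∈ Qx z) (hat : a * t ≠ t * a)
    (k : r * a * r⁻¹ * a⁻¹ ∈ Qx t) : r ∈ Qx z := by
  have e := h.es.conj_of_ne p.mem ha hat
  have h1 : a * r⁻¹ * a⁻¹ ∈ Qx t := by simpa [mul_assoc] using mul_mem (inv_mem hr) k
  have h2 := conj_mem_Qx e (inv_mem hr)
  rw [(h.pair p).comm, mem_Qx_mul (h.pair p).symm h1] at h2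
  simpa [mul_assoc] using inv_mem (mul_mem (mul_mem (inv_mem ha) h2) ha)

theorem exists_sw (p : Pt z t) (ha : a ∈ Qx z) (hat : a * t ≠ t * a) :
    ∃ g ∈ Qx z ⊔ Qx t, g * z * g⁻¹ = t ∧ g * (z * t) * g⁻¹ = z ∧ ∀ x ∈ Qx z, x * t = t * x →
      g * x * g⁻¹ * z = z * (g * x * g⁻¹) ∧ g * x * g⁻¹ * a * (g * x * g⁻¹)⁻¹ * a⁻¹ * x ∈ Qx t := by
  have P := h.pair p
  obtain ⟨b, hb, e1, e2⟩ := P.symm.exists_a
  have e3 := h.es.conj_of_ne p.mem ha hat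
  have e4 := conj_eq_of_comm (h.es.comm_z a ha)
  have f1 : a * b * z * (a * b)⁻¹ = t := by
    rw [show a * b * z * (a * b)⁻¹ = a * (b * z * b⁻¹) * a⁻¹ by group, e2, ← conj_mul, e3, e4, P.comm, h.es.zz]
  have f2 : a * b * (z * t) * (a * b)⁻¹ = z := by
    rw [← conj_mul, f1, show a * b * t * (a * b)⁻¹ = a * (b * t * b⁻¹) * a⁻¹ by group, e1, e3, P.h1.es.zz]
  refine ⟨a * b, mul_mem (mem_sup_left ha) (mem_sup_right hb), f1, f2, fun x hx ex => ⟨?_, ?_⟩⟩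
  · have : Commute x (z * t) := Commute.mul_right (h.es.comm_z x hx) ex
    simpa only [f2] using (this.conj (a * b)).eq
  · have c1 : Commute (b * x * b⁻¹) (z * t) := e2 ▸ Commute.conj (h.es.comm_z x hx) b
    have c2 : Commute (b * x * b⁻¹) t := e1 ▸ Commute.conj ex b
    have c3 : Commute (b * x * b⁻¹) (a * a) := by
      rcases h.es.sq ha with e | e <;> rw [e]
      exacts [Commute.one_right _, by simpa using c1.mul_right c2.inv_right]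
    have : a * (a * b * x * (a * b)⁻¹)⁻¹ * a⁻¹ = (b * x * b⁻¹)⁻¹ := by
      rw [← conj_eq_of_comm c3.inv_left.eq.symm]; group
    rw [mul_assoc _ a, mul_assoc _ (a * _), this, show ∀ y, y * (b * x * b⁻¹)⁻¹ * x = y * b * (x⁻¹ * b⁻¹ * x⁻¹⁻¹) from
      fun y => by group]
    exact mul_mem (mul_mem (P.conj _ f1 x hx) hb)
      (P.h1.norm _ (mem_cent.1 (inv_mem (mem_cent.2 ex))) _ (inv_mem hb))

end Hn

/-- coordinates for `Q_z / ⟨z⟩` and the action of `C(z)` -/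
structure Cn (z : G) (n : ℕ) where
  hyp : Hn z n
  q : QuadraticForm (ZMod 2) (VV (2 * n))
  π : G → VV (2 * n)
  ρ : CC z →* O q
  co : Coord (Qx z) z q π
  act : ∀ g, ∀ x ∈ Qx z, (ρ g).1 (π x) = π (g * x * (g : G)⁻¹)
  ker : ∀ g, ρ g = 1 ↔ (g : G) ∈ Qx z

theorem Hn.exists_cn [Finite G] {z : G} {n : ℕ} (h : Hn z n) : Nonempty (Cn z n) := by
  obtain ⟨m, q, π, co⟩ := h.es.exists_coord
  obtain rfl : m = 2 * n := by simpa using co.finrank_eq h.card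
  obtain ⟨ρ, h1, h2, h3⟩ := h.pre.exists_act co
  exact ⟨⟨h, q, π, ρ.codRestrict _ h2, co, h1, fun g => Subtype.ext_iff.trans (h3 g)⟩⟩

namespace Cn

variable {z t : G} {n : ℕ} (c : Cn z n)

/-- the image of `C(z)` -/
abbrev K : Subgroup (O c.q) := c.ρ.range

/-- `ρ` as a function on `G` -/
noncomputable def r (g : G) : O c.q :=
  haveI := Classical.dec (g * z = z * g)
  if h : g * z = z * g then c.ρ ⟨g, mem_cent.2 h⟩ else 1

theorem nd : Nondeg c.q := fun _ h => c.co.eq_zero_of_polar h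

theorem r_eq {g : G} (h : g * z = z * g) : c.r g = c.ρ ⟨g, mem_cent.2 h⟩ := dif_pos h

theorem r_coe (g : CC z) : c.r g = c.ρ g := c.r_eq (mem_cent.1 g.2)

theorem r_mem (g : G) : c.r g ∈ c.K := by
  unfold r; split_ifs
  exacts [⟨_, rfl⟩, one_mem _]

theorem mem_K {k : O c.q} : k ∈ c.K ↔ ∃ g, g * z = z * g ∧ c.r g = k :=
  ⟨fun ⟨g, e⟩ => ⟨g, mem_cent.1 g.2, (c.r_coe g).trans e⟩, fun ⟨g, _, e⟩ => e ▸ c.r_mem g⟩

theorem r_mul {g g' : G} (h : g * z = z * g) (h' : g' * z = z * g') :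
    c.r (g * g') = c.r g * c.r g' := by
  rw [c.r_eq h, c.r_eq h', ← map_mul]; exact c.r_coe (⟨g, mem_cent.2 h⟩ * ⟨g', mem_cent.2 h'⟩)

theorem r_inv {g : G} (h : g * z = z * g) : c.r g⁻¹ = (c.r g)⁻¹ := by
  rw [c.r_eq h, ← map_inv]; exact c.r_coe (⟨g, mem_cent.2 h⟩⁻¹)

theorem r_act {g x : G} (h : g * z = z * g) (hx : x ∈ Qx z) :
    (c.r g).1 (c.π x) = c.π (g * x * g⁻¹) := by rw [c.r_eq h]; exact c.act _ x hx

theorem r_eq_one {g : G} (h : g * z = z * g) : c.r g = 1 ↔ g ∈ Qx z := by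
  rw [c.r_eq h]; exact c.ker _

/-- `π [g, x] = g (π x) + π x` -/
theorem π_comm {g x : G} (h : g * z = z * g) (hx : x ∈ Qx z) :
    c.π (g * x * g⁻¹ * x⁻¹) = (c.r g).1 (c.π x) + c.π x := by
  rw [c.co.map_mul _ (c.hyp.pre.norm g h x hx) _ (inv_mem hx), c.co.map_inv hx, c.r_act h hx]

theorem r_fix {g x : G} (h : g * z = z * g) (hx : x ∈ Qx z) :
    (c.r g).1 (c.π x) = c.π x ↔ g * x * g⁻¹ = x ∨ g * x * g⁻¹ = x * z := by
  rw [c.r_act h hx, eq_comm, c.co.eq_iff hx (c.hyp.pre.norm g h x hx)]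

theorem o2 (N : Subgroup (O c.q)) (hN : N ≤ c.K) (hn : ∀ g ∈ c.K, ∀ x ∈ N, g * x * g⁻¹ ∈ N)
    (h2 : IsPGroup 2 N) : N = ⊥ := by
  have h1 : (N.comap c.ρ).Normal := ⟨fun x hx g => by
    rw [mem_comap, map_mul, map_mul, map_inv]; exact hn _ ⟨g, rfl⟩ _ hx⟩
  have h3 : IsPGroup 2 c.ρ.ker := by
    have : c.ρ.ker = Cfsg.pCore 2 (CC z) := by ext g; exact (c.ker g).trans coe_mem_amb
    exact this ▸ Core.isPGroup_pCore 2 _
  refine eq_bot_iff.2 fun x hx => ?_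
  obtain ⟨g, rfl⟩ := hN hx
  exact (c.ker g).2 (coe_mem_amb.2 (Core.le_pCore (h2.comap_of_ker_isPGroup c.ρ h3) hx))

theorem nofix [Finite G] [IsSimpleGroup G] (v : VV (2 * n)) (hv : ∀ g ∈ c.K, g.1 v = v) : v = 0 := by
  obtain ⟨x, hx, rfl⟩ := c.co.surj v
  by_contra h0
  rw [c.co.ker x hx, not_or] at h0
  have es := c.hyp.es
  have h1 : ∀ g, g * z = z * g → g * x * g⁻¹ = x ∨ g * x * g⁻¹ = x * z := fun g hg =>
    (c.r_fix hg hx).1 (hv _ (c.r_mem g))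
  obtain ⟨a, ha, ea⟩ := es.exists_conj hx h0.1 h0.2
  have h2 : ∀ g, g ∈ CC z ⊓ CC x ↔ g * z = z * g ∧ g * x * g⁻¹ = x := fun g =>
    and_congr mem_cent (mem_cent.trans mul_inv_eq_iff_eq_mul.symm)
  have h3 : x * z ≠ x := fun e => es.ne_one (by simpa using e)
  have h4 : ∀ g, g * z = z * g → g * (x * z) * g⁻¹ = g * x * g⁻¹ * z := fun g hg => by
    rw [← conj_mul, conj_eq_of_comm hg]
  refine (fun hh : Qx z ≤ CC z ⊓ CC x => h3 (ea.symm.trans ((h2 a).1 (hh ha)).2))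
    (Cfsg.Agent.S3299.result (Transfer.pResidual_two_eq_top_iff.2 (no_index_two c.hyp.ncomm)) z
      es.orderOf_eq _ rfl es.isExtraspecial c.hyp.pre.centralizer_le n (by have := c.hyp.big; omega) c.hyp.card _
      inf_le_left (fun g hg => ?_) ?_)
  · ext y
    rw [mem_map_conj, h2, h2]
    have hg' := mem_cent.1 hg
    have k : ∀ g y, g * z = z * g → y * z = z * y ∧ y * x * y⁻¹ = x →
        g⁻¹ * y * g * z = z * (g⁻¹ * y * g) ∧ g⁻¹ * y * g * x * (g⁻¹ * y * g)⁻¹ = x := fun g y hg hy => by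
      refine ⟨mem_cent.1 (mul_mem (mul_mem (inv_mem (mem_cent.2 hg)) (mem_cent.2 hy.1)) (mem_cent.2 hg)), ?_⟩
      have e : y * (g * x * g⁻¹) * y⁻¹ = g * x * g⁻¹ := by
        rcases h1 g hg with e | e <;> rw [e]
        exacts [hy.2, by rw [h4 y hy.1, hy.2]]
      calc _ = g⁻¹ * (y * (g * x * g⁻¹) * y⁻¹) * g := by group
        _ = _ := by rw [e]; group
    exact ⟨fun hy => by simpa [mul_assoc] using k g⁻¹ _ (mem_cent.1 (inv_mem hg)) hy, k g y hg'⟩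
  · refine index_eq_two_iff.2 ⟨⟨a, c.hyp.pre.le_cent ha⟩, fun g => ?_⟩
    have hg := mem_cent.1 g.2
    have e : (g : G) * a * x * (g * a)⁻¹ = g * x * (g : G)⁻¹ * z := by
      rw [← h4 g hg, ← ea]; group
    simp only [mem_subgroupOf, coe_mul, h2, e, hg, true_and,
      mem_cent.1 (mul_mem g.2 (c.hyp.pre.le_cent ha))]
    rcases h1 g hg with e | e <;> rw [e]
    · exact .inr ⟨rfl, h3⟩
    · exact .inl ⟨es.zz' x, h3⟩

theorem π_ne (p : Pt z t) : c.π t ≠ 0 := fun e => ((c.co.ker t p.mem).1 e).elim (c.hyp.ne_one p.conj) p.ne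

theorem b_ne {x y : G} (hx : x ∈ Qx z) (hy : y ∈ Qx z) : polar c.q (c.π x) (c.π y) = 1 ↔ x * y ≠ y * x :=
  zmod2_ne_zero.symm.trans (c.co.polar_iff hx hy).not

/-- the image of `C_{Q_t}(z)` -/
noncomputable abbrev Ro (t : G) : Subgroup (O c.q) := ((Qx t).subgroupOf (CC z)).map c.ρ

theorem mem_Ro {k : O c.q} : k ∈ c.Ro t ↔ ∃ r ∈ Qx t, r * z = z * r ∧ c.r r = k :=
  ⟨fun ⟨r, h, e⟩ => ⟨r, h, mem_cent.1 r.2, (c.r_coe r).trans e⟩,
    fun ⟨r, h, hz, e⟩ => ⟨⟨r, mem_cent.2 hz⟩, h, (c.r_eq hz).symm.trans e⟩⟩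

theorem img_conj {g : G} (hg : g * z = z * g) : ∀ e ∈ c.co.img (Qx t), (c.r g).1 e ∈ c.co.img (Qx (g * t * g⁻¹)) := by
  rintro _ ⟨y, h1, h2, rfl⟩
  exact ⟨_, mem_Qx_conj.2 h1, c.hyp.pre.norm g hg y h2, (c.r_act hg h2).symm⟩

theorem Ro_conj {g : G} (hg : g * z = z * g) : ∀ k ∈ c.Ro t, c.r g * k * (c.r g)⁻¹ ∈ c.Ro (g * t * g⁻¹) := by
  rintro _ ⟨r, h, rfl⟩
  exact ⟨⟨g, mem_cent.2 hg⟩ * r * ⟨g, mem_cent.2 hg⟩⁻¹, mem_Qx_conj.2 h, by rw [c.r_eq hg, map_mul, map_mul, map_inv]⟩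

noncomputable def E (v : VV (2 * n)) : SS (2 * n) := ⨅ x, ⨅ _ : Pt z x ∧ c.π x = v, c.co.img (Qx x)

noncomputable def R (v : VV (2 * n)) : Subgroup (O c.q) := ⨅ x, ⨅ _ : Pt z x ∧ c.π x = v, c.Ro x

def T (t : G) : Set (VV (2 * n)) := {v | ∃ g ∈ c.K, g.1 (c.π t) = v}

theorem exists_Q {y : G} (p : Pt z t) (hy : y ∈ Qx z) (e : c.π t = c.π y) : ∃ a ∈ Qx z, a * t * a⁻¹ = y := by
  rcases (c.co.eq_iff p.mem hy).1 e with rfl | rfl
  exacts [⟨1, one_mem _, by simp⟩, c.hyp.es.exists_conj p.mem (c.hyp.ne_one p.conj) p.ne]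

theorem E_eq (p : Pt z t) : c.E (c.π t) = c.co.img (Qx t) :=
  le_antisymm (iInf₂_le t ⟨p, rfl⟩) (le_iInf₂ fun y hy e he => by
    obtain ⟨a, ha, rfl⟩ := c.exists_Q p hy.1.mem hy.2.symm
    simpa [(c.r_eq_one (c.hyp.es.comm_z a ha)).2 ha] using c.img_conj (c.hyp.es.comm_z a ha) e he)

theorem R_eq (p : Pt z t) : c.R (c.π t) = c.Ro t :=
  le_antisymm (iInf₂_le t ⟨p, rfl⟩) (le_iInf₂ fun y hy e he => by
    obtain ⟨a, ha, rfl⟩ := c.exists_Q p hy.1.mem hy.2.symm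
    simpa [(c.r_eq_one (c.hyp.es.comm_z a ha)).2 ha] using c.Ro_conj (c.hyp.es.comm_z a ha) e he)

theorem mem_T {x : G} (p : Pt z t) (hx : x ∈ Qx z) : c.π x ∈ c.T t ↔ ∃ g, g * z = z * g ∧ g * t * g⁻¹ = x := by
  refine ⟨fun ⟨k, hk, e⟩ => ?_, fun ⟨g, hg, e⟩ => ⟨_, c.r_mem g, e ▸ c.r_act hg p.mem⟩⟩
  obtain ⟨g, hg, rfl⟩ := c.mem_K.1 hk
  obtain ⟨a, ha, rfl⟩ := c.exists_Q (p.cj' hg) hx ((c.r_act hg p.mem).symm.trans e)
  exact ⟨a * g, mem_cent.1 (mul_mem (c.hyp.pre.le_cent ha) (mem_cent.2 hg)), by group⟩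

theorem self_T : c.π t ∈ c.T t := ⟨1, one_mem _, rfl⟩

variable [Finite G]

theorem mem_E (p : Pt z t) {y : G} (hy : y ∈ Qx z) : c.π y ∈ c.E (c.π t) ↔ y ∈ Qx t := by
  rw [c.E_eq p]
  refine ⟨fun ⟨x, h1, h2, e⟩ => ?_, fun h => ⟨y, h, hy, rfl⟩⟩
  rcases (c.co.eq_iff h2 hy).1 e with rfl | rfl
  exacts [h1, mul_mem h1 (c.hyp.pair p).zQ1]

theorem lt [IsSimpleGroup G] (p : Pt z t) : LT c.q c.K (c.T t) c.E c.R := by
  have es := c.hyp.es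
  have hT : ∀ v ∈ c.T t, ∃ x, Pt z x ∧ c.π x = v := by
    rintro _ ⟨k, hk, rfl⟩
    obtain ⟨g, hg, rfl⟩ := c.mem_K.1 hk
    exact ⟨_, p.cj' hg, (c.r_act hg p.mem).symm⟩
  refine ⟨⟨c.nd, c.o2, c.nofix⟩, fun v hv => ?_, ?_, ?_, fun v hv => ?_, fun v hv => ?_, fun v hv => ?_,
    fun v hv => ?_, fun v hv => ?_, fun v hv => ?_, fun v hv => ?_, fun k hk v hv => ?_, fun k hk v hv => ?_⟩
  rotate_left
  · rintro g hg _ ⟨k, hk, rfl⟩
    exact ⟨g * k, mul_mem hg hk, rfl⟩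
  · rintro _ ⟨g, hg, rfl⟩ _ ⟨k, hk, rfl⟩
    exact ⟨k * g⁻¹, mul_mem hk (inv_mem hg), by rw [O_mul_apply, O_inv_apply_apply]⟩
  rotate_right
  all_goals obtain ⟨y, hy, rfl⟩ := hT _ hv
  all_goals have P := c.hyp.pair hy
  · exact c.π_ne hy
  · exact (c.mem_E hy hy.mem).2 P.h1.es.mem
  · rw [c.E_eq hy]
    rintro _ ⟨x, h1, h2, rfl⟩
    exact (c.co.sq x h2).2 (P.E_sq ⟨h2, h1⟩)
  · rw [c.R_eq hy]; exact map_le_range _ _
  · rw [c.R_eq hy]; exact fun r => P.map_mul_self c.ρ c.ker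
  · rw [c.R_eq hy]
    intro k hk v hv
    obtain ⟨r, h1, h2, rfl⟩ := c.mem_Ro.1 hk
    obtain ⟨x, hx, rfl⟩ := c.co.surj v
    have := P.commutator_mem_E hx ((c.co.polar_iff hy.mem hx).1 hv).symm h1 h2
    rw [← c.π_comm h2 hx]
    exact (c.mem_E hy this.1).2 this.2
  · rw [c.R_eq hy]
    intro k hk v hv e
    obtain ⟨r, h1, h2, rfl⟩ := c.mem_Ro.1 hk
    obtain ⟨x, hx, rfl⟩ := c.co.surj v
    rw [← c.π_comm h2 hx, c.mem_E hy (mul_mem (P.h0.norm r h2 x hx) (inv_mem hx))] at e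
    exact (c.r_eq_one h2).2 (c.hyp.mem_of_comm_mem hy h1 hx ((c.b_ne hy.mem hx).1 hv).symm e)
  · rw [c.R_eq hy]
    intro v w hv hw
    obtain ⟨a, ha, rfl⟩ := c.co.surj v
    obtain ⟨x, hx, rfl⟩ := c.co.surj w
    obtain ⟨g, -, e, -, f⟩ := c.hyp.exists_sw hy ha ((c.b_ne hy.mem ha).1 hv).symm
    obtain ⟨f1, f2⟩ := f x hx ((c.co.polar_iff hy.mem hx).1 hw).symm
    have m := mul_mem (P.h0.norm _ f1 a ha) (inv_mem ha)
    exact ⟨_, c.mem_Ro.2 ⟨_, P.conj g e x hx, f1, rfl⟩, by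
      rw [← c.π_comm f1 ha, ← c.co.map_mul _ m _ hx]; exact (c.mem_E hy (mul_mem m hx)).2 f2⟩
  · obtain ⟨g, hg, rfl⟩ := c.mem_K.1 hk
    rw [c.r_act hg hy.mem, c.E_eq hy, c.E_eq (hy.cj' hg)]
    exact c.img_conj hg
  · obtain ⟨g, hg, rfl⟩ := c.mem_K.1 hk
    rw [c.r_act hg hy.mem, c.R_eq hy, c.R_eq (hy.cj' hg)]
    exact c.Ro_conj hg

end Cn

end CfsgLib.LXR
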